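/-
A solvable maximal subgroup of derived length ten in the Fischer group Fi23.
-/
import Cfsg.Agent.Comp.Fi23N3
import Cfsg.Agent.Spor.T23
import Cfsg.Agent.Char.Burnside

set_option autoImplicit false

namespace CL.T23
open CL.PG Cfsg Cfsg.Spor MulAction Subgroup
open scoped commutatorElement

variable {G : Type*} [Group G]

theorem coatom_of_set {H : Subgroup G} {A U : Set (Tj G)} (hst : ∀ g, g ∈ sstab G A → g ∈ H)
    (hAH : ∀ y ∈ A, y.val ∈ H) (hU : ∀ g : G, ∀ y ∈ A, g • y ∈ U) (hne : H ≠ ⊤)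
    (hout : ∀ y ∈ U, y ∉ A → ∀ K, H ≤ K → y.val ∈ K → K = ⊤) : IsCoatom H := by
  refine ⟨hne, fun K hK => by_contra fun hK' => ?_⟩
  have key : ∀ g ∈ K, ∀ y ∈ A, g • y ∈ A := fun g hg y hy => by_contra fun h =>
    hK' (hout _ (hU g y hy) h K hK.le (K.mul_mem (K.mul_mem hg (hK.le (hAH y hy))) (K.inv_mem hg)))
  exact hK.not_ge fun g hg => hst g fun x =>
    ⟨fun h => by simpa using key _ (K.inv_mem hg) _ h, key g hg x⟩

theorem val_mem_of_orbit {H K : Subgroup G} (h : H ≤ K) {x y : Tj G} (hy : y ∈ orbit H x) : x.val ∈ K ↔ y.val ∈ K := by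
  obtain ⟨g, rfl⟩ := hy
  change _ ↔ (g : G) * x.val * (g : G)⁻¹ ∈ K
  rw [K.mul_mem_cancel_right (K.inv_mem (h g.2)), K.mul_mem_cancel_left (h g.2)]

theorem le_derived_succ {H X Y : Subgroup G} {i : ℕ} (h : X ≤ (derivedSeries H i).map H.subtype) (h' : Y ≤ ⁅X, X⁆) :
    Y ≤ (derivedSeries H (i + 1)).map H.subtype := by
  rw [derivedSeries_succ, map_commutator]
  exact h'.trans (commutator_mono h h)

theorem exists_coatom : ∃ H : Subgroup Fi23, IsCoatom H ∧ derivedSeries H 10 ≠ derivedSeries H 9 := by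
  obtain ⟨e, gs0, m0⟩ := model_of_equiv (MulEquiv.refl Fi23) rfl
  have m := nmd m0
  generalize ext gs0 nws = gs at m
  generalize (MulEquiv.refl Fi23) '' conjugatesOf (PresentedGroup.of Fi23.Gen.a) = D at m
  have c := m.c
  have := Fi23P.simple
  have hc := nH_card c
  have htop : ∀ K : Subgroup Fi23, D ⊆ K → K = ⊤ := fun K hK => by
    have hn : (closure D).Normal := ⟨fun x hx g => by
      have : closure D ≤ (closure D).comap (MulAut.conj g).toMonoidHom :=
        (closure_le _).2 fun y hy => subset_closure (m.t.inv g y hy)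
      exact this hx⟩
    refine top_le_iff.1 (((hn.eq_bot_or_eq_top.resolve_left fun h => ?_).ge).trans ((closure_le _).2 hK))
    have h1 : ∀ i < P.n, (e i).val = 1 := fun i hi => mem_bot.1 (h ▸ subset_closure ((m.t.mem _).2 ⟨i, hi, rfl⟩))
    exact absurd (c.inj 0 (by decide) 1 (by decide) (Tj.ext' ((h1 0 (by decide)).trans (h1 1 (by decide)).symm)))
      (by decide)
  have h0 : (e 0).val ∈ subW gs [[48], [50]] := by
    rw [m.t.e0]; exact nd0 c (mem_subW (by simp))
  have out : ∀ (w : List ℕ) (p sc : _), (e p).val = wordG gs w →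
      orbit (subW gs [w, [48], [50]]) (e 0) = mset e P.n (grow P.N nns sc (bit 0)) →
      Nat.beq (grow P.N nns sc (bit 0)) (ones P.n) = true → ∀ y ∈ orbit (subW gs [[48], [50]]) (e p),
      ∀ K, subW gs [[48], [50]] ≤ K → y.val ∈ K → K = ⊤ := fun w p sc h1 h2 h3 y hy K hK hyK => by
    have h4 : subW gs [w, [48], [50]] ≤ K := subW_le.2 fun v hv => by
      rcases List.mem_cons.1 hv with rfl | hv
      · rw [← h1]; exact (val_mem_of_orbit hK hy).2 hyK
      · exact hK (mem_subW hv)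
    refine htop K fun d hd => ?_
    rw [Nat.eq_of_beq_eq_true h3] at h2
    exact (val_mem_of_orbit (y := ⟨d⟩) h4 (by rw [h2]; exact m.t.mem_ones.2 hd)).1 (hK h0)
  refine ⟨subW gs [[48], [50]], coatom_of_set (A := orbit (subW gs [[48], [50]]) (e 0)) (U := mset e P.n (ones P.n))
    (fun g hg => ?_) (fun y hy => (val_mem_of_orbit le_rfl hy).1 h0) (fun g y hy => ?_) (fun h => ?_)
    (fun y hy hy' => ?_), fun h => ?_⟩
  · refine (nst c m.ub g).2 ⟨by rw [m.t.top]; trivial, fun k hk => ?_⟩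
    rw [hA, List.mem_singleton] at hk
    rw [hk, ← (no0 c).1]
    exact hg
  · rw [(no0 c).1] at hy
    exact m.t.mem_ones.2 (m.t.inv g _ (m.t.mem_ones.1 (mset_subset_ones _ _ _ hy)))
  · rw [h, card_top, m.t.card] at hc
    exact absurd hc (by norm_num)
  · rw [← Nat.eq_of_beq_eq_true cov, mset_lor, mset_lor, ← (no0 c).1, ← (no1 c).1, ← (no2 c).1] at hy
    rcases hy with hy | hy | hy
    · exact absurd hy hy'
    · exact out [72] 6531 _ (ntr m (6531, [72]) (by decide +kernel)).2 (nt1 c).1 cov1 y hy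
    · exact out [74] 3 _ (ntr m (3, [74]) (by decide +kernel)).2 (nt2 c).1 cov2 y hy
  · have : Finite (subW gs [[48], [50]]) := (nH_ub c).1
    have : Group.IsSolvable (subW gs [[48], [50]]) := CL.Char.isSolvable_of_two_primes Nat.prime_two Nat.prime_three
      fun r hr hd => by
        rw [hc, show 3265173504 = 2 ^ 11 * 3 ^ 13 by norm_num, hr.dvd_mul] at hd
        exact hd.imp (fun h => (Nat.prime_dvd_prime_iff_eq hr Nat.prime_two).1 (hr.dvd_of_dvd_pow h))
          fun h => (Nat.prime_dvd_prime_iff_eq hr Nat.prime_three).1 (hr.dvd_of_dvd_pow h)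
    have h9 : derivedSeries (subW gs [[48], [50]]) 9 = ⊥ := by_contra fun h' =>
      (Group.IsSolvable.commutator_lt_of_ne_bot h').ne h
    have d0 : subW gs [[48], [50]] ≤ (derivedSeries (subW gs [[48], [50]]) 0).map (subW gs [[48], [50]]).subtype := by
      rw [derivedSeries_zero, ← MonoidHom.range_eq_map, range_subtype]
    have d9 := le_derived_succ (le_derived_succ (le_derived_succ (le_derived_succ (le_derived_succ (le_derived_succ
      (le_derived_succ (le_derived_succ (le_derived_succ d0 (nc1 c)) (nc2 c)) (nc3 c)) (nc4 c)) (nc5 c)) (nc6 c))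
      (nc7 c)) (nc8 c)) (nc9 c)
    rw [show (0 + 1 + 1 + 1 + 1 + 1 + 1 + 1 + 1 + 1 : ℕ) = 9 from rfl, h9, Subgroup.map_bot] at d9
    exact nne c (mem_bot.1 (d9 (mem_subW (by simp))))

end CL.T23
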