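/-
Subgroups strongly closed in their normalisers (`ℋ`-subgroups): `p`-nilpotency and supersolvability
criteria from the subgroups of a fixed order of the Sylow subgroups.
-/
import Cfsg.Agent.Grp.Supersolv3
import Cfsg.Agent.Grp.Primitive
import Cfsg.Agent.Grp.Coprime2
import Cfsg.Agent.Grp.PGroupCritical
import Cfsg.Agent.Grp.PNilpFrob
import Cfsg.Agent.Grp.Alperin
import Cfsg.Agent.Transfer.Tate
import Cfsg.Statements.S3031
import Cfsg.Statements.S3032

set_option autoImplicit false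

open scoped Pointwise commutatorElement
open Cfsg Subgroup CL.Grp

namespace CL.Comp

universe u

variable {G : Type*} [Group G] {p : ℕ}

/-- `F` is strongly closed in `P` with respect to the ambient group. -/
def HSC (P F : Subgroup G) : Prop := ∀ x ∈ F, ∀ g : G, g * x * g⁻¹ ∈ P → g * x * g⁻¹ ∈ F

theorem mem_normalizer_of_conj_mem [Finite G] {F : Subgroup G} {g : G}
    (h : ∀ x ∈ F, g * x * g⁻¹ ∈ F) : g ∈ normalizer (F : Set G) := by
  rw [← conj_smul_eq_self_iff]
  exact eq_of_le_of_card_ge ((conj_smul_le_iff g F F).2 h) (card_conj_smul g F).ge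

/-- an `ℋ`-subgroup is normal in every `p`-subgroup containing it -/
theorem le_normalizer_of_hsub [Finite G] [Fact p.Prime] {P F : Subgroup G} (hP : IsPGroup p P)
    (hF : F ≤ P)
    (h : ∀ g : G, F.map (MulAut.conj g).toMonoidHom ⊓ normalizer (F : Set G) ≤ F) :
    P ≤ normalizer (F : Set G) := by
  by_contra hn
  have h1 : P ⊓ normalizer (F : Set G) < P :=
    lt_of_le_of_ne inf_le_left fun e => hn (inf_eq_left.1 e)
  obtain ⟨x, hx, hxn⟩ := SetLike.exists_of_lt (lt_inf_normalizer_pGroup hP h1)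
  refine hxn ⟨hx.1, mem_normalizer_of_conj_mem fun y hy => h x ⟨⟨y, hy, rfl⟩, ?_⟩⟩
  exact ((mem_normalizer_iff.1 hx.2 y).1 ⟨hF hy, le_normalizer hy⟩).2

theorem hsc_of_hsub [Finite G] [Fact p.Prime] {P F : Subgroup G} (hP : IsPGroup p P)
    (hF : F ≤ P)
    (h : ∀ g : G, F.map (MulAut.conj g).toMonoidHom ⊓ normalizer (F : Set G) ≤ F) : HSC P F :=
  fun x hx g hg => h g ⟨⟨x, hx, rfl⟩, le_normalizer_of_hsub hP hF h hg⟩

theorem HSC.normalizer_le [Finite G] {P F Q : Subgroup G} (h : HSC P F) (hQ : Q ≤ P) :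
    normalizer (Q : Set G) ≤ normalizer ((Q ⊓ F : Subgroup G) : Set G) := fun g hg =>
  mem_normalizer_of_conj_mem fun x hx =>
    have h1 := (mem_normalizer_iff.1 hg x).1 hx.1
    ⟨h1, h x hx.2 g (hQ h1)⟩

/-- action on a cyclic normal `p`-subgroup -/
theorem pow_mem_centralizer_of_cyclic [Finite G] [hp : Fact p.Prime] (Z : Subgroup G) [Z.Normal]
    [IsCyclic Z] {m : ℕ} (hZ : Nat.card Z = p ^ m) {g : G} (hg : g ∈ ssRes p ⊤) :
    g ^ p ^ (m - 1) ∈ centralizer (Z : Set G) := by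
  have hc : ∀ a b : MulAut Z, a * b = b * a := fun a b => (IsCyclic.mulAutMulEquiv Z).injective (by
    rw [map_mul, map_mul, mul_comm])
  let K : Subgroup G :=
    { carrier := {g | (MulAut.conjNormal (H := Z) g) ^ p ^ (m - 1) = 1}
      mul_mem' := fun {a b} ha hb => by
        simp only [Set.mem_ofPred_eq] at ha hb ⊢
        rw [map_mul, Commute.mul_pow (hc _ _), ha, hb, mul_one]
      one_mem' := by simp
      inv_mem' := fun {a} ha => by
        simp only [Set.mem_ofPred_eq] at ha ⊢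
        rw [map_inv, inv_pow, ha, inv_one] }
  have hK : ssRes p ⊤ ≤ K := by
    refine ssRes_le_iff.2 ⟨fun x _ y _ => ?_, fun x _ => ?_⟩
    · change (MulAut.conjNormal (H := Z) ⁅x, y⁆) ^ p ^ (m - 1) = 1
      rw [map_commutatorElement, commutatorElement_eq_one_iff_mul_comm.2 (hc _ _), one_pow]
    · change (MulAut.conjNormal (H := Z) (x ^ (p - 1))) ^ p ^ (m - 1) = 1
      rw [map_pow, ← pow_mul]
      rcases Nat.eq_zero_or_pos m with rfl | hm
      · have : Subsingleton Z := (Nat.card_eq_one_iff_unique.1 (by simpa using hZ)).1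
        exact MulEquiv.ext fun _ => Subsingleton.elim _ _
      · rw [mul_comm, ← Nat.totient_prime_pow hp.out hm, ← hZ, ← IsCyclic.card_mulAut,
          pow_card_eq_one']
  have h1 : MulAut.conjNormal (H := Z) (g ^ p ^ (m - 1)) = 1 := by
    rw [map_pow]; exact hK hg
  intro n hn
  have h2 := congrArg (fun φ : MulAut Z => (φ ⟨n, hn⟩ : G)) h1
  simp only [MulAut.conjNormal_apply, MulAut.one_apply] at h2
  rw [mul_inv_eq_iff_eq_mul] at h2
  exact h2.symm

theorem mem_of_pow_mem_of_coprime [Finite G] {K : Subgroup G} {g : G} {n : ℕ} (h : g ^ n ∈ K)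
    (hc : (orderOf g).Coprime n) : g ∈ K :=
  zpowers_le.2 h (mem_zpowers_pow_iff.2 (Nat.Coprime.symm hc))

theorem mem_centralizer_of_cyclic [Finite G] [hp : Fact p.Prime] (Z : Subgroup G) [Z.Normal]
    [IsCyclic Z] (hZ : IsPGroup p Z) {g : G} (hg : g ∈ ssRes p ⊤)
    (h : (orderOf g).Coprime p ∨ Nat.card Z ∣ p) : g ∈ centralizer (Z : Set G) := by
  obtain ⟨m, hm⟩ := IsPGroup.iff_card.1 hZ
  have h1 := pow_mem_centralizer_of_cyclic Z hm hg
  rcases h with h | h
  · exact mem_of_pow_mem_of_coprime h1 (h.pow_right _)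
  · have h2 : m ≤ 1 := by
      rw [hm] at h
      have := (Nat.pow_dvd_pow_iff_le_right hp.out.one_lt (k := m) (l := 1)).1 (by simpa using h)
      exact this
    rwa [show m - 1 = 0 by omega, pow_zero, pow_one] at h1

/-- action on a cyclic section `Y / X` of a `p`-group -/
theorem commutator_mem_of_cyclic_section [Finite G] [hp : Fact p.Prime] {X Y H : Subgroup G}
    (hY : IsPGroup p Y) (hYX : Y ≤ normalizer (X : Set G)) {x : G} (hx : x ∈ Y)
    (hgen : Y ≤ zpowers x ⊔ X) (hHX : H ≤ normalizer (X : Set G)) (hHY : H ≤ normalizer (Y : Set G))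
    {g : G} (hg : g ∈ ssRes p H) (h : (orderOf g).Coprime p ∨ X.relIndex Y ∣ p) :
    ∀ y ∈ Y, ⁅y, g⁆ ∈ X := by
  let L : Subgroup G := normalizer (X : Set G) ⊓ normalizer (Y : Set G)
  have hYL : Y ≤ L := le_inf hYX le_normalizer
  have hHL : H ≤ L := le_inf hHX hHY
  have hXn : (X.subgroupOf L).Normal := ⟨fun a ha b =>
    mem_subgroupOf.2 ((mem_normalizer_iff.1 b.2.1 _).1 (mem_subgroupOf.1 ha))⟩
  have hYn : (Y.subgroupOf L).Normal := ⟨fun a ha b =>
    mem_subgroupOf.2 ((mem_normalizer_iff.1 b.2.2 _).1 (mem_subgroupOf.1 ha))⟩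
  let π := QuotientGroup.mk' (X.subgroupOf L)
  let Z := (Y.subgroupOf L).map π
  have hZn : Z.Normal := hYn.map _ (QuotientGroup.mk'_surjective _)
  have hZe : Z = zpowers (π ⟨x, hYL hx⟩) := by
    refine le_antisymm ?_ (zpowers_le.2 ⟨_, mem_subgroupOf.2 hx, rfl⟩)
    rintro _ ⟨a, ha, rfl⟩
    have h1 : (a : G) ∈ ((zpowers x ⊔ X : Subgroup G) : Set G) := hgen (mem_subgroupOf.1 ha)
    rw [coe_mul_of_left_le_normalizer_right _ _ ((zpowers_le.2 hx).trans hYX)] at h1
    obtain ⟨_, ⟨k, rfl⟩, c, hc, e⟩ := h1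
    refine ⟨k, ?_⟩
    simp only [π, QuotientGroup.mk'_apply]
    refine QuotientGroup.eq.2 (mem_subgroupOf.2 ?_)
    simp only [coe_mul, coe_inv, coe_zpow, ← e]
    simpa using hc
  have : IsCyclic Z := hZe ▸ isCyclic_zpowers _
  have hgL : g ∈ L := hHL (ssRes_le H hg)
  have hg1 : (⟨g, hgL⟩ : L) ∈ ssRes p (⊤ : Subgroup L) := by
    have h1 : g ∈ (ssRes p (⊤ : Subgroup L)).map L.subtype := by
      rw [map_ssRes, ← MonoidHom.range_eq_map, range_subtype]
      exact ssRes_mono hHL hg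
    obtain ⟨b, hb, e⟩ := h1
    exact (Subtype.ext e : b = ⟨g, hgL⟩) ▸ hb
  have hg2 : π ⟨g, hgL⟩ ∈ ssRes p (⊤ : Subgroup (L ⧸ X.subgroupOf L)) := by
    refine ssRes_mono (H := (⊤ : Subgroup L).map π) le_top ?_
    rw [← map_ssRes]
    exact mem_map_of_mem _ hg1
  have hc := mem_centralizer_of_cyclic Z ((hY.comap_subtype (K := L)).map _) hg2 (by
    rcases h with h | h
    · exact Or.inl ((show (orderOf (⟨g, hgL⟩ : L)).Coprime p by
        rwa [orderOf_mk]).coprime_dvd_left (orderOf_map_dvd _ _))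
    · refine Or.inr ?_
      have h1 : Nat.card Z = X.relIndex Y := by
        rw [← relIndex_subgroupOf hYL, ← relIndex_ker, QuotientGroup.ker_mk']
      exact h1 ▸ h)
  intro y hy
  have h2 := mem_centralizer_iff.1 hc _ (mem_map_of_mem π (mem_subgroupOf.2 hy : (⟨y, hYL hy⟩ : L) ∈ _))
  rw [← commutatorElement_eq_one_iff_mul_comm, ← map_commutatorElement] at h2
  exact mem_subgroupOf.1 ((QuotientGroup.eq_one_iff _).1 h2)

theorem mem_centralizer_of_cyclic_sub [Finite G] [hp : Fact p.Prime] {Y H : Subgroup G}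
    (hY : IsPGroup p Y) (hc : IsCyclic Y) (hHY : H ≤ normalizer (Y : Set G))
    {g : G} (hg : g ∈ ssRes p H) (h : (orderOf g).Coprime p) : g ∈ centralizer (Y : Set G) := by
  obtain ⟨⟨x, hx⟩, hgen⟩ := hc.exists_generator
  have h1 := commutator_mem_of_cyclic_section (X := ⊥) hY (by rw [normalizer_eq_top]; exact le_top) hx
    (fun y hy => by
      obtain ⟨k, hk⟩ := hgen ⟨y, hy⟩
      exact mem_sup_left ⟨k, congrArg Subtype.val hk⟩)
    (by rw [normalizer_eq_top]; exact le_top) hHY hg (Or.inl h)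
  exact fun y hy => commutatorElement_eq_one_iff_mul_comm.1 (mem_bot.1 (h1 y hy))

theorem exists_between_card [Finite G] [hp : Fact p.Prime] {A B : Subgroup G} (hB : IsPGroup p B)
    (hAB : A ≤ B) {k : ℕ} (h1 : Nat.card A ≤ p ^ k) (h2 : p ^ k ≤ Nat.card B) :
    ∃ E : Subgroup G, A ≤ E ∧ E ≤ B ∧ Nat.card E = p ^ k := by
  obtain ⟨a, ha⟩ := IsPGroup.iff_card.1 (hB.to_le hAB)
  obtain ⟨b, hb⟩ := IsPGroup.iff_card.1 hB
  rw [ha, Nat.pow_le_pow_iff_right hp.out.one_lt] at h1
  rw [hb, Nat.pow_le_pow_iff_right hp.out.one_lt] at h2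
  obtain ⟨K, hK, hAK⟩ := Sylow.exists_subgroup_card_pow_prime_le p (G := B) (m := k)
    (hb ▸ pow_dvd_pow p h2) (A.subgroupOf B)
    ((Nat.card_congr (subgroupOfEquivOfLe hAB).toEquiv).trans ha) h1
  refine ⟨K.map B.subtype, ?_, map_subtype_le _, (card_map_of_injective B.subtype_injective).trans hK⟩
  rw [← map_subgroupOf_eq_of_le hAB]
  exact map_mono hAK

/-- The subgroups of order `p ^ k` (and `4` if `p ^ k = 2`) of `P` are strongly closed in `P`. -/
def HSHyp (p : ℕ) (P : Subgroup G) (k : ℕ) : Prop :=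
  1 < p ^ k ∧ p ^ k < Nat.card P ∧
    ∀ F : Subgroup G, F ≤ P → (Nat.card F = p ^ k ∨ (p ^ k = 2 ∧ Nat.card F = 4)) → HSC P F

/-- small exponent: all large subgroups are strongly closed -/
theorem HSHyp.hsc_of_exp [Finite G] [hp : Fact p.Prime] {P : Subgroup G} {k : ℕ} (h : HSHyp p P k)
    (hP : IsPGroup p P) (he : ∀ c ∈ P, orderOf c ≤ p ^ k) {M : Subgroup G} (hM : M ≤ P)
    (hk : p ^ k ≤ Nat.card M) : HSC P M := by
  intro x hx g hg
  obtain ⟨E, h1, h2, h3⟩ := exists_between_card (hP.to_le hM) (zpowers_le.2 hx)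
    (by rw [Nat.card_zpowers]; exact he x (hM hx)) hk
  exact h2 (h.2.2 E (h2.trans hM) (Or.inl h3) x (h1 (mem_zpowers x)) g hg)

theorem HSHyp.hsc_coatom [Finite G] [hp : Fact p.Prime] {P : Subgroup G} {k : ℕ} (h : HSHyp p P k)
    (hP : IsPGroup p P) (he : ∀ c ∈ P, orderOf c ≤ p ^ k) {M : Subgroup P} (hM : IsCoatom M) :
    HSC P (M.map P.subtype) := by
  refine h.hsc_of_exp hP he (map_subtype_le _) ?_
  rw [card_map_of_injective P.subtype_injective]
  have h1 := M.index_mul_card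
  rw [index_eq_of_isCoatom_pGroup hP hM] at h1
  obtain ⟨m, hm⟩ := IsPGroup.iff_card.1 (hP.to_subgroup M)
  have h2 := h.2.1
  rw [← h1, hm, ← pow_succ', Nat.pow_lt_pow_iff_right hp.out.one_lt] at h2
  rw [hm, Nat.pow_le_pow_iff_right hp.out.one_lt]
  omega

/-- a strongly closed subgroup of index `p`: `ssRes` of the normaliser of `T ≤ P` acts trivially on
`T / T ∩ M` -/
theorem commutator_mem_coatom [Finite G] [hp : Fact p.Prime] {P : Subgroup G} (hP : IsPGroup p P)
    {M : Subgroup P} (hM : IsCoatom M) (hsc : HSC P (M.map P.subtype)) {T H : Subgroup G}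
    (hT : T ≤ P) (hH : H ≤ normalizer (T : Set G)) {g : G} (hg : g ∈ ssRes p H) :
    ∀ y ∈ T, ⁅y, g⁆ ∈ M.map P.subtype := by
  have hn := normal_of_isCoatom_pGroup hP hM
  have hi : (T ⊓ M.map P.subtype).relIndex T ∣ p := by
    rw [inf_relIndex_left, ← index_eq_of_isCoatom_pGroup hP hM, ← relIndex_subgroupOf hT,
      ← comap_subtype, comap_map_eq_self_of_injective P.subtype_injective]
    exact relIndex_dvd_index_of_normal _ _
  by_cases hle : T ≤ M.map P.subtype
  · intro y hy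
    have h1 := (mem_normalizer_iff.1 (hH (ssRes_le H hg)) _).1 (inv_mem hy)
    exact hle (by simpa [commutatorElement_def, mul_assoc] using mul_mem hy h1)
  obtain ⟨x, hx, hxM⟩ := SetLike.not_le_iff_exists.1 hle
  have hTn : T ≤ normalizer ((T ⊓ M.map P.subtype : Subgroup G) : Set G) :=
    le_normalizer.trans (hsc.normalizer_le hT)
  intro y hy
  refine (commutator_mem_of_cyclic_section (hP.to_le hT) hTn hx ?_ (hH.trans (hsc.normalizer_le hT))
    hH hg (Or.inr hi) y hy).2
  have h1 : (T ⊓ M.map P.subtype).relIndex T = p :=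
    ((Nat.dvd_prime hp.out).1 hi).resolve_left fun e => hle ((relIndex_eq_one.1 e).trans inf_le_right)
  have h2 : IsCoatom ((T ⊓ M.map P.subtype).subgroupOf T) :=
    isCoatom_of_index_prime (by rw [← relIndex, h1]; exact hp.out)
  have h3 := h2.2 ((zpowers x ⊔ T ⊓ M.map P.subtype).subgroupOf T) (lt_of_le_of_ne
    (subgroupOf_mono _ le_sup_right) fun e => by
      have : (⟨x, hx⟩ : T) ∈ (T ⊓ M.map P.subtype).subgroupOf T := by
        rw [e]; exact mem_subgroupOf.2 (mem_sup_left (mem_zpowers x))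
      exact hxM (mem_subgroupOf.1 this).2)
  exact subgroupOf_eq_top.1 h3

/-- large exponent: the `p'`-elements of `ssRes` of the normaliser of `Q ≤ P` centralise `Q` -/
theorem HSHyp.mem_centralizer [Finite G] [hp : Fact p.Prime] {P : Subgroup G} {k : ℕ}
    (h : HSHyp p P k) (hP : IsPGroup p P) {c : G} (hc : c ∈ P) (hk : p ^ k ≤ orderOf c)
    {Q H : Subgroup G} (hQ : Q ≤ P) (hH : H ≤ normalizer (Q : Set G)) {g : G} (hg : g ∈ ssRes p H)
    (hco : (orderOf g).Coprime p) : g ∈ centralizer (Q : Set G) := by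
  obtain ⟨C, -, hCc, hC⟩ := exists_between_card (A := ⊥) (hP.to_le (zpowers_le.2 hc)) bot_le
    (k := k) (by rw [card_bot]; exact h.1.le) (by rwa [Nat.card_zpowers])
  have hCP : C ≤ P := hCc.trans (zpowers_le.2 hc)
  have hCsc := h.2.2 C hCP (Or.inl hC)
  have hCcyc : IsCyclic C := Subgroup.isCyclic_of_le hCc
  have hPC : P ≤ normalizer (C : Set G) := fun y hy => mem_normalizer_of_conj_mem fun z hz =>
    hCsc z hz y (mul_mem (mul_mem hy (hCP hz)) (inv_mem hy))
  have hgH := ssRes_le H hg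
  refine mem_centralizer_of_centralizes_omega (hP.to_le hQ) (hH hgH) hco fun x hx hx1 => ?_
  by_cases hxk : orderOf x ≤ p ^ k
  · have hxP : zpowers x ≤ P := zpowers_le.2 (hQ hx)
    obtain ⟨E, h1, h2, h3⟩ := exists_between_card (A := zpowers x) (B := zpowers x ⊔ C)
      (hP.to_le (sup_le hxP hCP)) le_sup_left (k := k) (by rwa [Nat.card_zpowers])
      (hC ▸ card_le_of_le le_sup_right)
    have hEsc := h.2.2 E (h2.trans (sup_le hxP hCP)) (Or.inl h3)
    have hY : Q ⊓ E ≤ P := inf_le_left.trans hQ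
    have hHY : H ≤ normalizer ((Q ⊓ E : Subgroup G) : Set G) := hH.trans (hEsc.normalizer_le hQ)
    have hHX : H ≤ normalizer ((Q ⊓ E ⊓ C : Subgroup G) : Set G) :=
      hHY.trans (hCsc.normalizer_le hY)
    have hxY : x ∈ Q ⊓ E := ⟨hx, h1 (mem_zpowers x)⟩
    have h4 := commutator_mem_of_cyclic_section (X := Q ⊓ E ⊓ C) (hP.to_le hY)
      (le_normalizer.trans (hCsc.normalizer_le hY)) hxY (fun y hy => by
        have h5 : y ∈ ((zpowers x ⊔ C : Subgroup G) : Set G) := h2 hy.2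
        rw [coe_mul_of_left_le_normalizer_right _ _ (hxP.trans hPC)] at h5
        obtain ⟨a, ha, b, hb, rfl⟩ := h5
        refine mul_mem_sup ha ⟨?_, hb⟩
        simpa using mul_mem (inv_mem (zpowers_le.2 hxY ha)) hy) hHX hHY hg (Or.inl hco)
    have h5 := mem_centralizer_of_cyclic_sub (hP.to_le (inf_le_left.trans hY))
      (Subgroup.isCyclic_of_le (inf_le_right : Q ⊓ E ⊓ C ≤ C)) hHX hg hco
    have h6 := mem_centralizer_of_commute_commutator (hP.to_le hY) (hHY hgH) hco fun y hy =>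
      (h5 _ (h4 y hy)).symm
    exact (h6 x hxY).symm
  · have hk1 : 1 ≤ k := Nat.pos_of_ne_zero fun e => by simpa [e] using h.1
    have h1 : p = 2 ∧ x ^ 4 = 1 := hx1.resolve_left fun e => hxk
      ((orderOf_le_of_pow_eq_one hp.out.pos e).trans (Nat.le_self_pow (by omega) p))
    obtain ⟨rfl, h4⟩ := h1
    have h2 : orderOf x ∣ 2 ^ 2 := orderOf_dvd_of_pow_eq_one h4
    obtain ⟨j, hj, e⟩ := (Nat.dvd_prime_pow Nat.prime_two).1 h2
    rw [e, Nat.pow_le_pow_iff_right (by norm_num)] at hxk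
    obtain rfl : j = 2 := by omega
    obtain rfl : k = 1 := by omega
    have hsc := h.2.2 (zpowers x) (zpowers_le.2 (hQ hx)) (Or.inr ⟨rfl, by rw [Nat.card_zpowers, e]; rfl⟩)
    have h5 := mem_centralizer_of_cyclic_sub (hP.to_le (inf_le_left.trans hQ))
      (Subgroup.isCyclic_of_le (inf_le_right : Q ⊓ zpowers x ≤ zpowers x))
      (hH.trans (hsc.normalizer_le hQ)) hg hco
    exact (h5 x ⟨hx, mem_zpowers x⟩).symm

theorem mem_ssRes_zpowers [Finite G] [hp : Fact p.Prime]
    (hmin : ∀ q : ℕ, q.Prime → q ∣ Nat.card G → p ≤ q) (g : G) : g ∈ ssRes p (zpowers g) := by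
  refine mem_of_pow_mem_of_coprime (pow_mem_ssRes (mem_zpowers g)) ?_
  refine Nat.coprime_of_dvd fun q hq h1 h2 => ?_
  have h3 := hmin q hq (h1.trans (orderOf_dvd_natCard g))
  have h4 := Nat.le_of_dvd (by have := hp.out.two_le; omega) h2
  have := hp.out.two_le
  omega

theorem hasNormalPComplement_of_hsHyp [Finite G] [hp : Fact p.Prime]
    (hmin : ∀ q : ℕ, q.Prime → q ∣ Nat.card G → p ≤ q) (P : Sylow p G)
    (h : IsCyclic (P : Subgroup G) ∨ ∃ k, HSHyp p (P : Subgroup G) k) : HasNormalPComplement p G := by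
  rcases h with h | ⟨k, h⟩
  · exact (hasNormalPComplement_iff_normalizer_coprime_centralizes P).2 fun Q hQ g hg hco =>
      mem_centralizer_of_cyclic_sub (P.2.to_le hQ) (Subgroup.isCyclic_of_le hQ) (zpowers_le.2 hg)
        (mem_ssRes_zpowers hmin g) hco
  by_cases he : ∀ c ∈ (P : Subgroup G), orderOf c ≤ p ^ k
  · refine CL.Transfer.hasNormalPComplement_of_inf_pResidual_le_frattini P ?_
    rw [← map_subgroupOf_eq_of_le (inf_le_left : (P : Subgroup G) ⊓ pResidual p G ≤ P)]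
    refine map_mono (le_frattini_iff.2 fun M hM => ?_)
    have hsc := h.hsc_coatom P.2 he hM
    suffices hs : (P : Subgroup G) ⊓ pResidual p G ≤ M.map (P : Subgroup G).subtype by
      intro x hx
      obtain ⟨y, hy, e⟩ := hs (mem_subgroupOf.1 hx)
      exact (Subtype.ext e : y = x) ▸ hy
    have key := alperin_induction P
      (fun A g => ∀ a ∈ A, a⁻¹ * (g⁻¹ * a * g) ∈ M.map (P : Subgroup G).subtype)
      (fun A a _ => by simp)
      (fun A x g h1 h2 a ha => by
        have := mul_mem (h1 a ha) (h2 _ ⟨a, ha, rfl⟩)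
        simpa [mul_assoc] using this)
      (fun Q _ A hA x hx a ha => by
        have := commutator_mem_coatom P.2 hM hsc inf_le_left (zpowers_le.2 (inv_mem hx))
          (mem_ssRes_zpowers hmin x⁻¹) a⁻¹ (inv_mem (hA ha))
        simpa [commutatorElement_def, mul_assoc] using this)
    refine sylow_inf_pResidual_le P fun x hx u _ hxu => ?_
    have h1 := key {x⁻¹} u⁻¹ (by simpa using hx.1) (by
      have : x⁻¹ * ⁅x, u⁆ ∈ P := mul_mem (inv_mem (mem_inf.1 hx).1) hxu
      simpa [commutatorElement_def, mul_assoc] using this) x⁻¹ rfl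
    simpa [commutatorElement_def, mul_assoc] using h1
  · push Not at he
    obtain ⟨c, hc, hk⟩ := he
    exact (hasNormalPComplement_iff_normalizer_coprime_centralizes P).2 fun Q hQ g hg hco =>
      h.mem_centralizer P.2 hc hk.le hQ (zpowers_le.2 hg) (mem_ssRes_zpowers hmin g) hco

theorem exists_hsHyp [Finite G] [hp : Fact p.Prime] {P : Subgroup G} (hP : IsPGroup p P)
    (h : ∃ D : Subgroup G, D ≤ P ∧ 1 < Nat.card D ∧ Nat.card D < Nat.card P ∧
      ∀ E : Subgroup G, E ≤ P → (Nat.card E = Nat.card D ∨ (Nat.card D = 2 ∧ Nat.card E = 4)) →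
        ∀ g : G, E.map (MulAut.conj g).toMonoidHom ⊓ normalizer (E : Set G) ≤ E) :
    ∃ k, HSHyp p P k := by
  obtain ⟨D, hD, h1, h2, h3⟩ := h
  obtain ⟨k, hk⟩ := IsPGroup.iff_card.1 (hP.to_le hD)
  rw [hk] at h1 h2 h3
  exact ⟨k, h1, h2, fun F hF h4 => hsc_of_hsub hP hF (h3 F hF h4)⟩

theorem s3031 : type_of% @Cfsg.CfsgFrozen.S3031.{u} := by
  intro G _ _ p _ _ hmin P h
  exact hasNormalPComplement_of_hsHyp hmin P (h.imp_right (exists_hsHyp P.2))

/-- If `P` is a normal `p`-subgroup with supersolvable quotient centralised by the `p'`-elements of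
`G' G^(p-1)`, then `G` is supersolvable. -/
theorem isSupersolvable_of_ssRes_coprime [hp : Fact p.Prime] [Finite G] {P : Subgroup G}
    [hPn : P.Normal] (hP : IsPGroup p P) (hq : IsSupersolvable (G ⧸ P))
    (h : ∀ g ∈ ssRes p (⊤ : Subgroup G), (orderOf g).Coprime p → g ∈ centralizer (P : Set G)) :
    IsSupersolvable G := by
  refine induction_on_card (P := fun X _ _ => ∀ P : Subgroup X, P.Normal → IsPGroup p P → SSFrom P →
    (∀ g ∈ ssRes p (⊤ : Subgroup X), (orderOf g).Coprime p → g ∈ centralizer (P : Set X)) →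
      IsSupersolvable X)
    (fun X _ _ ih P hPn hP hq h => ?_) G P hPn hP (ssFrom_iff_isSupersolvable_quotient.2 hq) h
  by_cases hb : P = ⊥
  · exact isSupersolvable_iff_ssFrom_bot.2 (hb ▸ hq)
  obtain ⟨N, hN, hNP⟩ := exists_isMinNormal_le P hb
  have := hN.normal
  have hR : (ssRes p (⊤ : Subgroup X)).Normal := normalizer_eq_top_iff.1
    (top_le_iff.1 (le_normalizer_ssRes ⊤))
  have h1 : ssRes p ⊤ ≤ centralizer (N : Set X) := by
    let S : Sylow p (ssRes p (⊤ : Subgroup X)) := default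
    have hd : p ∣ Nat.card N := by
      obtain ⟨k, hk⟩ := IsPGroup.iff_card.1 (hP.to_le hNP)
      rcases k with _ | k
      · exact absurd (card_eq_one.1 (by simpa using hk)) hN.ne_bot
      · exact hk ▸ dvd_pow_self p k.succ_ne_zero
    have h2 := inf_centralizer_ne_bot_of_isPGroup (K := N)
      (S.2.map (ssRes p (⊤ : Subgroup X)).subtype) (by rw [normalizer_eq_top]; exact le_top) hd
    have h3 : N ⊓ centralizer ((ssRes p (⊤ : Subgroup X) : Subgroup X) : Set X) ≠ ⊥ := by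
      refine fun e => h2 (eq_bot_iff.2 fun n hn => e.le ⟨hn.1, fun g hg => ?_⟩)
      obtain ⟨a, ha, b, hb, e⟩ := exists_pResidual_mul_sylow S ⟨g, hg⟩
      have ha' : a ∈ (centralizer (N : Set X)).comap (ssRes p (⊤ : Subgroup X)).subtype :=
        (pResidual_le_iff (p := p) (N := (centralizer (N : Set X)).comap
          (ssRes p (⊤ : Subgroup X)).subtype)).2
          (fun y hy => centralizer_le hNP (h y y.2 (by rwa [orderOf_coe]))) ha
      have e1 : g = a * b := congrArg Subtype.val e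
      have e2 : (b : X) * n = n * b := hn.2 _ ⟨b, hb, rfl⟩
      have e3 : n * (a : X) = a * n := ha' n hn.1
      rw [e1, mul_assoc, e2, ← mul_assoc, ← e3, mul_assoc]
    exact le_centralizer_iff.1 ((hN.eq_of_le h3 inf_le_left).ge.trans inf_le_right)
  have h2 := hN.card_eq_of_abelian_exponent (hP.to_le hNP)
    (fun x y => (ssRes_le_iff.1 h1).1 x trivial y trivial) fun x => (ssRes_le_iff.1 h1).2 x trivial
  refine isSupersolvable_of_card_prime_normal N (h2 ▸ hp.out) ?_
  refine ih _ (card_quotient_lt hN.ne_bot) (P.map (QuotientGroup.mk' N))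
    (hPn.map _ (QuotientGroup.mk'_surjective N)) (hP.map _)
    (hq.map _ (QuotientGroup.mk'_surjective N)) fun g hg hco => ?_
  rw [← map_top_of_surjective _ (QuotientGroup.mk'_surjective N), ← map_ssRes] at hg
  obtain ⟨g, hg, rfl⟩ := hg
  obtain ⟨a, -, b, hb, ⟨k, hk⟩, hcb, e, hab⟩ := exists_pPart_mul_pPrimePart hp.out g
  have h3 : QuotientGroup.mk' N b ∈ centralizer ((P.map (QuotientGroup.mk' N) : Subgroup _) : Set _) :=
    map_centralizer_le_centralizer_image _ _ ⟨b, h b (zpowers_le.2 hg hb) hcb, rfl⟩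
  refine mem_of_pow_mem_of_coprime (n := p ^ k) ?_ (hco.pow_right k)
  rw [← map_pow, e, hab.mul_pow, ← hk, pow_orderOf_eq_one, one_mul, map_pow]
  exact pow_mem h3 _

theorem isSupersolvable_of_hsHyp [hp : Fact p.Prime] [Finite G] {P : Subgroup G}
    [hPn : P.Normal] (hP : IsPGroup p P) (hq : IsSupersolvable (G ⧸ P))
    (h : IsCyclic P ∨ ∃ k, HSHyp p P k) : IsSupersolvable G := by
  rcases h with h | ⟨k, h⟩
  · exact isSupersolvable_of_isCyclic_normal P hq
  have hn : (⊤ : Subgroup G) ≤ normalizer (P : Set G) := by rw [normalizer_eq_top]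
  refine isSupersolvable_of_ssRes_coprime hP hq fun g hg hco => ?_
  by_cases he : ∀ c ∈ P, orderOf c ≤ p ^ k
  · refine le_centralizer_of_commutator_le_frattini (A := zpowers g) (le_top.trans hn) ?_ ?_
      (mem_zpowers g)
    · obtain ⟨m, hm⟩ := IsPGroup.iff_card.1 (hP.to_subgroup (frattini P))
      rw [hm, Nat.card_zpowers]
      exact hco.pow_right m
    · rw [← map_subgroupOf_eq_of_le (commutator_le_left P (zpowers g))]
      refine map_mono (le_frattini_iff.2 fun M hM => ?_)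
      suffices hs : ⁅P, zpowers g⁆ ≤ M.map P.subtype by
        intro x hx
        obtain ⟨y, hy, e⟩ := hs (mem_subgroupOf.1 hx)
        exact (Subtype.ext e : y = x) ▸ hy
      exact commutator_le.2 fun y hy a ha => commutator_mem_coatom hP hM (h.hsc_coatom hP he hM)
        le_rfl hn (zpowers_le.2 hg ha) y hy
  · push Not at he
    obtain ⟨c, hc, hk⟩ := he
    exact h.mem_centralizer hP hc hk.le le_rfl hn hg hco

/-- the hypothesis passes to the quotient by a normal `p`-complement of `E` -/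
theorem HSHyp.map_quotient [hp : Fact p.Prime] [Finite G] {P K E : Subgroup G} [K.Normal] [E.Normal]
    (hP : IsSylowIn p P E) (hPK : P ⊓ K = ⊥) (hE : ∀ e ∈ E, ∃ a ∈ K, ∃ b ∈ P, e = a * b) {k : ℕ}
    (h : HSHyp p P k) : HSHyp p (P.map (QuotientGroup.mk' K)) k := by
  have hc : ∀ F ≤ P, Nat.card (F.map (QuotientGroup.mk' K)) = Nat.card F := fun F hF => by
    rw [← relIndex_ker, QuotientGroup.ker_mk', ← inf_relIndex_right,
      eq_bot_iff.2 ((inf_le_inf_left K hF).trans (inf_comm K P ▸ hPK.le)), relIndex_bot_left]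
  refine ⟨h.1, (hc P le_rfl).symm ▸ h.2.1, fun F hF h1 => ?_⟩
  have e : (P ⊓ F.comap (QuotientGroup.mk' K)).map (QuotientGroup.mk' K) = F := by
    refine le_antisymm (map_le_iff_le_comap.2 inf_le_right) fun y hy => ?_
    obtain ⟨x, hx, rfl⟩ := hF hy
    exact ⟨x, ⟨hx, hy⟩, rfl⟩
  have hsc := h.2.2 _ inf_le_left (by rwa [← hc _ inf_le_left, e])
  have hKF : ∀ a ∈ K, QuotientGroup.mk' K a = 1 := fun a ha => (QuotientGroup.eq_one_iff _).2 ha
  intro y hy g _
  obtain ⟨g, rfl⟩ := QuotientGroup.mk'_surjective K g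
  rw [← e] at hy
  obtain ⟨x, hx, rfl⟩ := hy
  obtain ⟨n, hn, hng⟩ := hP.frattini (H := ⊤) (by rw [normalizer_eq_top]) (mem_top g)
  obtain ⟨a, ha, b, hb, e1⟩ := hE n⁻¹ (inv_mem hn)
  have h2 : b * (n * g) ∈ normalizer (P : Set G) := mul_mem (le_normalizer hb) hng
  have h3 := (hsc x hx _ ((mem_normalizer_iff.1 h2 x).1 hx.1)).2
  have e2 : g = a * (b * (n * g)) := by rw [← mul_assoc, ← e1]; group
  rw [e2, map_mul, hKF a ha, one_mul, ← map_inv, ← map_mul, ← map_mul]
  exact h3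

theorem HSHyp.subgroupOf {P E : Subgroup G} (hPE : P ≤ E) {k : ℕ} (h : HSHyp p P k) :
    HSHyp p (P.subgroupOf E) k := by
  refine ⟨h.1, (Nat.card_congr (subgroupOfEquivOfLe hPE).toEquiv).symm ▸ h.2.1, fun F hF h1 => ?_⟩
  have hsc := h.2.2 (F.map E.subtype) ((map_mono hF).trans (map_subgroupOf_eq_of_le hPE).le)
    (by rwa [card_map_of_injective E.subtype_injective])
  intro x hx g hg
  obtain ⟨y, hy, e⟩ := hsc x ⟨x, hx, rfl⟩ g (mem_subgroupOf.1 hg)
  exact (Subtype.ext e : y = g * x * g⁻¹) ▸ hy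

theorem isSupersolvable_of_sylow_hsHyp [Finite G] (E : Subgroup G) [hEn : E.Normal]
    (hGE : IsSupersolvable (G ⧸ E))
    (h : ∀ p : ℕ, p.Prime → ∀ P : Subgroup G, IsSylowIn p P E → IsCyclic P ∨ ∃ k, HSHyp p P k) :
    IsSupersolvable G := by
  induction hn : Nat.card E using Nat.strong_induction_on generalizing E with
  | _ n ih =>
  by_cases hb : E = ⊥
  · subst hb
    exact isSupersolvable_iff_ssFrom_bot.2 (ssFrom_iff_isSupersolvable_quotient.2 hGE)
  have h1 : Nat.card E ≠ 1 := fun e => hb (card_eq_one.1 e)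
  have hp := Nat.minFac_prime h1
  have hd := Nat.minFac_dvd (Nat.card E)
  have hmin : ∀ q : ℕ, q.Prime → q ∣ Nat.card E → (Nat.card E).minFac ≤ q :=
    fun q hq hqd => Nat.minFac_le_of_dvd hq.two_le hqd
  generalize (Nat.card E).minFac = p at hp hd hmin
  have := Fact.mk hp
  obtain ⟨P, hP⟩ := exists_isSylowIn (p := p) E
  have hc : HasNormalPComplement p E := hasNormalPComplement_of_hsHyp hmin hP.toSylow (by
    rw [hP.coe_toSylow]
    exact (h p hp P hP).imp (fun (_ : IsCyclic P) => isCyclic_of_surjective _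
      (subgroupOfEquivOfLe hP.le).symm.surjective) fun ⟨k, hk⟩ => ⟨k, hk.subgroupOf hP.le⟩)
  have hco := hasNormalPComplement_iff_coprime_pResidual.1 hc
  let K := (pResidual p E).map E.subtype
  have hKn : K.Normal := ConjAct.normal_of_characteristic_of_normal
  have hKE : K ≤ E := map_subtype_le _
  have hKc : (Nat.card K).Coprime p := by rwa [card_map_of_injective E.subtype_injective]
  have hPK : P ⊓ K = ⊥ := by
    obtain ⟨m, hm⟩ := IsPGroup.iff_card.1 hP.isPGroup
    exact disjoint_iff.1 (disjoint_of_coprime_natCard (hm ▸ (hKc.pow_right m).symm))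
  have hE : ∀ e ∈ E, ∃ a ∈ K, ∃ b ∈ P, e = a * b := fun e he => by
    obtain ⟨a, ha, b, hb, e1⟩ := exists_pResidual_mul_sylow hP.toSylow ⟨e, he⟩
    exact ⟨a, ⟨a, ha, rfl⟩, b, mem_subgroupOf.1 hb, congrArg Subtype.val e1⟩
  have hPE : P.map (QuotientGroup.mk' K) = E.map (QuotientGroup.mk' K) := by
    refine le_antisymm (map_mono hP.le) ?_
    rintro _ ⟨e, he, rfl⟩
    obtain ⟨a, ha, b, hb, rfl⟩ := hE e he
    refine ⟨b, hb, ?_⟩
    rw [map_mul, (QuotientGroup.eq_one_iff a).2 ha |> (QuotientGroup.mk'_apply K a).trans, one_mul]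
  have hPn : (P.map (QuotientGroup.mk' K)).Normal :=
    hPE ▸ hEn.map _ (QuotientGroup.mk'_surjective K)
  have hGK : IsSupersolvable (G ⧸ K) := isSupersolvable_of_hsHyp (hP.isPGroup.map _)
    (ssFrom_iff_isSupersolvable_quotient.1 (hPE ▸
      (ssFrom_iff_isSupersolvable_quotient.2 hGE).map _ (QuotientGroup.mk'_surjective K)))
    ((h p hp P hP).imp (fun (_ : IsCyclic P) =>
        isCyclic_of_surjective _ ((QuotientGroup.mk' K).subgroupMap_surjective P))
      fun ⟨k, hk⟩ => ⟨k, hk.map_quotient hP hPK hE⟩)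
  have hlt : Nat.card K < Nat.card E := Grp.card_lt_card_of_lt (lt_of_le_of_ne hKE fun e =>
    (Nat.Prime.coprime_iff_not_dvd hp).1 hKc.symm (e ▸ hd))
  refine ih _ (hn ▸ hlt) K hGK (fun q hq Q hQ => ?_) rfl
  have := Fact.mk hq
  by_cases hqp : q = p
  · subst hqp
    obtain ⟨m, hm⟩ := IsPGroup.iff_card.1 hQ.isPGroup
    have h2 : Nat.card Q = 1 := Nat.eq_one_of_dvd_coprimes (hKc.pow_right m)
      (card_dvd_of_le hQ.le) hm.dvd
    have := (Nat.card_eq_one_iff_unique.1 h2).1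
    exact Or.inl isCyclic_of_subsingleton
  refine h q hq Q ⟨hQ.le.trans hKE, hQ.isPGroup, fun hd' => ?_⟩
  rw [← relIndex_mul_relIndex Q K E hQ.le hKE] at hd'
  rcases (Nat.Prime.dvd_mul hq).1 hd' with h2 | h2
  · exact hQ.not_dvd h2
  · obtain ⟨m, hm⟩ := index_pResidual p E
    rw [relIndex, ← comap_subtype, comap_map_eq_self_of_injective E.subtype_injective, hm] at h2
    exact hqp ((Nat.prime_dvd_prime_iff_eq hq hp).1 (hq.dvd_of_dvd_pow h2))

theorem s3032 : type_of% @Cfsg.CfsgFrozen.S3032.{u} := by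
  intro G _ _ E _ hGE h
  refine isSupersolvable_of_sylow_hsHyp E hGE fun p hp P hP => ?_
  have := Fact.mk hp
  by_cases hc : IsCyclic P
  · exact Or.inl hc
  · exact Or.inr (exists_hsHyp hP.isPGroup (h p hp P hP.le hP.isPGroup hP.not_dvd hc))

end CL.Comp
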