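/-
Order types: the numbers of solutions of `x ^ d = 1` are multiplicative over direct products and determine the
order type; kernel certificates for small permutation groups on at most 24 points.
-/
import Cfsg.Agent.Spor.M24Perm

set_option autoImplicit false

open CL.Spor
open scoped commutatorElement

namespace CL.Comp.OT

/-- number of solutions of `x ^ d = 1` -/
noncomputable def sol (G : Type) [Group G] (d : ℕ) : ℕ := Nat.card {g : G // g ^ d = 1}

theorem sol_prod (A B : Type) [Group A] [Group B] (d : ℕ) : sol (A × B) d = sol A d * sol B d := by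
  rw [sol, sol, sol, ← Nat.card_prod]
  exact Nat.card_congr
    { toFun := fun g => (⟨g.1.1, congrArg Prod.fst g.2⟩, ⟨g.1.2, congrArg Prod.snd g.2⟩)
      invFun := fun x => ⟨(x.1.1, x.2.1), Prod.ext x.1.2 x.2.2⟩
      left_inv := fun _ => rfl
      right_inv := fun _ => rfl }

theorem card_orderOf_eq_of_sol {A B : Type} [Group A] [Group B] [Finite A] [Finite B]
    (h : ∀ d, sol A d = sol B d) (n : ℕ) :
    Nat.card {g : A // orderOf g = n} = Nat.card {g : B // orderOf g = n} := by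
  classical
  have := Fintype.ofFinite A
  have := Fintype.ofFinite B
  induction n using Nat.strong_induction_on with
  | _ n ih =>
  rcases Nat.eq_zero_or_pos n with rfl | hn
  · have : IsEmpty {g : A // orderOf g = 0} := ⟨fun g => (orderOf_pos g.1).ne' g.2⟩
    have : IsEmpty {g : B // orderOf g = 0} := ⟨fun g => (orderOf_pos g.1).ne' g.2⟩
    rw [Nat.card_of_isEmpty, Nat.card_of_isEmpty]
  have h1 := sum_card_orderOf_eq_card_pow_eq_one (G := A) hn.ne'
  have h2 := sum_card_orderOf_eq_card_pow_eq_one (G := B) hn.ne'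
  have h3 := h n
  simp only [sol, Nat.card_eq_fintype_card, Fintype.card_subtype] at h3 ih ⊢
  rw [← h1, ← h2, ← Nat.insert_self_properDivisors hn.ne',
    Finset.sum_insert Nat.self_notMem_properDivisors,
    Finset.sum_insert Nat.self_notMem_properDivisors,
    Finset.sum_congr rfl fun m hm => ih m (Nat.mem_properDivisors.1 hm).2] at h3
  exact Nat.add_right_cancel h3

/-- the divisors of `84` -/
def ds : List ℕ := [1, 2, 3, 4, 6, 7, 12, 14, 21, 28, 42, 84]

/-- There is a finite group of exponent dividing `84` with property `Q` and solution counts `v`. -/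
def Real (Q : ∀ (G : Type) [Group G], Prop) (v : List ℕ) : Prop :=
  ∃ (G : Type) (_ : Group G) (_ : Finite G), Q G ∧ (∀ g : G, g ^ 84 = 1) ∧ ds.map (sol G) = v

def QT : ∀ (G : Type) [Group G], Prop := fun _ _ => True
def QS : ∀ (G : Type) [Group G], Prop := fun G _ => Group.IsSolvable G
def QN : ∀ (G : Type) [Group G], Prop := fun G _ => ¬ Group.IsSolvable G

theorem Real.mul {Q₁ Q₂ Q₃ : ∀ (G : Type) [Group G], Prop}
    (hQ : ∀ (A B : Type) [Group A] [Group B], Q₁ A → Q₂ B → Q₃ (A × B)) {v w : List ℕ}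
    (h₁ : Real Q₁ v) (h₂ : Real Q₂ w) : Real Q₃ (List.zipWith (· * ·) v w) := by
  obtain ⟨A, _, _, a1, a2, rfl⟩ := h₁
  obtain ⟨B, _, _, b1, b2, rfl⟩ := h₂
  refine ⟨A × B, inferInstance, inferInstance, hQ A B a1 b1, fun g => Prod.ext (a2 _) (b2 _), ?_⟩
  rw [List.zipWith_map, List.zipWith_self]
  exact List.map_congr_left fun d _ => sol_prod A B d

theorem mulSS {v w : List ℕ} (h₁ : Real QS v) (h₂ : Real QS w) : Real QS (List.zipWith (· * ·) v w) :=
  Real.mul (fun A B _ _ (_ : Group.IsSolvable A) (_ : Group.IsSolvable B) =>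
    (inferInstance : Group.IsSolvable (A × B))) h₁ h₂

theorem mulNT {v w : List ℕ} (h₁ : Real QN v) (h₂ : Real QT w) : Real QN (List.zipWith (· * ·) v w) :=
  Real.mul (fun A B _ _ ha _ (_ : Group.IsSolvable (A × B)) =>
    ha (Group.isSolvable_of_surjective (f := MonoidHom.fst A B) Prod.fst_surjective)) h₁ h₂

theorem mulTT {v w : List ℕ} (h₁ : Real QT v) (h₂ : Real QT w) : Real QT (List.zipWith (· * ·) v w) :=
  Real.mul (fun _ _ _ _ _ _ => trivial) h₁ h₂

theorem Real.toT {Q : ∀ (G : Type) [Group G], Prop} {v : List ℕ} (h : Real Q v) : Real QT v := by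
  obtain ⟨A, _, _, -, a2, a3⟩ := h
  exact ⟨A, inferInstance, inferInstance, trivial, a2, a3⟩

theorem Real.pow {Q : ∀ (G : Type) [Group G], Prop}
    (hQ : ∀ {v w : List ℕ}, Real Q v → Real QT w → Real Q (List.zipWith (· * ·) v w) ∨
      (Real Q w → Real Q (List.zipWith (· * ·) v w))) {v : List ℕ} (h : Real Q v) (m : ℕ) :
    Real Q (v.map (· ^ (m + 1))) := by
  induction m with
  | zero => simpa using h
  | succ m ih =>
    have h1 : Real Q (List.zipWith (· * ·) (v.map (· ^ (m + 1))) v) :=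
      (hQ ih h.toT).elim id fun f => f h
    have e : List.zipWith (· * ·) (v.map (· ^ (m + 1))) v = v.map (· ^ (m + 1 + 1)) := by
      rw [List.zipWith_map_left, List.zipWith_self]
      exact List.map_congr_left fun a _ => (pow_succ a _).symm
    exact e ▸ h1

theorem powS {v : List ℕ} (h : Real QS v) (m : ℕ) : Real QS (v.map (· ^ (m + 1))) :=
  Real.pow (fun h₁ _ => Or.inr (mulSS h₁)) h m

theorem powT {v : List ℕ} (h : Real QT v) (m : ℕ) : Real QT (v.map (· ^ (m + 1))) :=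
  Real.pow (fun h₁ h₂ => Or.inl (mulTT h₁ h₂)) h m

theorem powN {v : List ℕ} (h : Real QN v) (m : ℕ) : Real QN (v.map (· ^ (m + 1))) :=
  Real.pow (fun h₁ h₂ => Or.inl (mulNT h₁ h₂)) h m

theorem sol_gcd {A : Type} [Group A] (h : ∀ g : A, g ^ 84 = 1) (d : ℕ) :
    sol A d = sol A (Nat.gcd d 84) :=
  Nat.card_congr (Equiv.subtypeEquivRight fun g => by
    rw [pow_gcd_eq_one]; exact ⟨fun h1 => ⟨h1, h g⟩, fun h1 => h1.1⟩)

theorem exists_pair {v : List ℕ} (hS : Real QS v) (hN : Real QN v) :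
    ∃ (G : Type) (_ : Group G) (_ : Finite G) (H : Type) (_ : Group H) (_ : Finite H),
      Group.IsSolvable G ∧ ¬ Group.IsSolvable H ∧
        ∀ n : ℕ, Nat.card {g : G // orderOf g = n} = Nat.card {h : H // orderOf h = n} := by
  obtain ⟨A, _, _, a1, a2, a3⟩ := hS
  obtain ⟨B, _, _, b1, b2, b3⟩ := hN
  refine ⟨A, inferInstance, inferInstance, B, inferInstance, inferInstance, a1, b1,
    card_orderOf_eq_of_sol fun d => ?_⟩
  rw [sol_gcd a2, sol_gcd b2]
  refine List.map_inj_left.1 (a3.trans b3.symm) _ ?_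
  have h1 : ∀ k ∈ Nat.divisors 84, k ∈ ds := by decide +kernel
  exact h1 _ (Nat.mem_divisors.2 ⟨Nat.gcd_dvd_right _ _, by norm_num⟩)

/-! ### Packed permutations of 24 points -/

abbrev S24 := Equiv.Perm (Fin 24)

/-- `P` is the packed form of `σ`. -/
def R (P : ℕ) (σ : S24) : Prop := P < 2 ^ 120 ∧ ∀ i : Fin 24, (σ i : ℕ) = pf P i

theorem pf_lt (P k : ℕ) : pf P k < 2 ^ 5 := getTab_lt 5 P k

theorem pf_pmul (P Q : ℕ) {k : ℕ} (hk : k < 24) : pf (pmul P Q) k = pf P (pf Q k) :=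
  getTab_packTab (w := 5) (fun _ _ => pf_lt _ _) hk

theorem R.one : R pone 1 := ⟨by decide +kernel, by decide +kernel⟩

theorem R.mul {P Q : ℕ} {σ τ : S24} (hP : R P σ) (hQ : R Q τ) : R (pmul P Q) (σ * τ) :=
  ⟨packTab_lt (w := 5) (n := 24) fun _ _ => pf_lt _ _, fun i => by
    rw [pf_pmul _ _ i.2, ← hQ.2, ← hP.2]; rfl⟩

theorem R.eq_iff {P Q : ℕ} {σ τ : S24} (hP : R P σ) (hQ : R Q τ) : σ = τ ↔ P = Q :=
  ⟨fun e => eq_of_getTab_eq (w := 5) (n := 24) (by norm_num) hP.1 hQ.1 fun i hi =>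
      (hP.2 ⟨i, hi⟩).symm.trans (e ▸ hQ.2 ⟨i, hi⟩),
    fun e => Equiv.ext fun i => Fin.ext ((hP.2 i).trans (e ▸ (hQ.2 i).symm))⟩

theorem R.cancel {P Q : ℕ} {σ τ : S24} (hP : P < 2 ^ 120) (hQ : R Q τ) (h : R (pmul P Q) σ) :
    R P (σ * τ⁻¹) := ⟨hP, fun i => by
  rw [Equiv.Perm.mul_apply, h.2, pf_pmul _ _ (τ⁻¹ i).2, ← hQ.2]; simp⟩

/-- test: `P` is the packed form of a permutation -/
def valB (P : ℕ) : Bool :=
  and (Nat.blt P 1329227995784915872903807060280344576) (allBelow (fun i => and (Nat.blt (pf P i) 24)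
    (allBelow (fun j => or (Nat.beq i j) (not (Nat.beq (pf P i) (pf P j)))) 24)) 24)

theorem exists_R {P : ℕ} (h : valB P = true) : ∃ σ, R P σ := by
  simp only [valB, Bool.and_eq_true, Nat.blt_eq, allBelow_iff, Bool.or_eq_true, Nat.beq_eq,
    Bool.not_eq_true'] at h
  let f : Fin 24 → Fin 24 := fun i => ⟨pf P i, (h.2 i i.2).1⟩
  have hf : Function.Injective f := fun i j e => Fin.ext (((h.2 i i.2).2 j j.2).resolve_right
    fun h1 => Nat.ne_of_beq_eq_false h1 (congrArg Fin.val e))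
  exact ⟨Equiv.ofBijective f (Finite.injective_iff_bijective.1 hf), h.1, fun _ => rfl⟩

/-- the group generated by packed permutations -/
def cl (gs : List ℕ) : Subgroup S24 := Subgroup.closure {σ | ∃ g ∈ gs, R g σ}

def memB (P : ℕ) (L : List ℕ) : Bool := anyL (Nat.beq P) L

theorem memB_iff {P : ℕ} {L : List ℕ} : memB P L = true ↔ P ∈ L := by
  simp [memB, anyL_iff]

/-- every entry is new and is the identity or is carried by a generator to a later entry -/
def chainB (gs L : List ℕ) : Bool :=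
  List.rec (motive := fun _ => Bool) true (fun P L' ih => and (and (and
    (Nat.blt P 1329227995784915872903807060280344576) (not (memB P L')))
    (or (Nat.beq P pone) (anyL (fun g => memB (pmul P g) L') gs))) ih) L

theorem chainB_spec {gs : List ℕ} (hv : allL valB gs = true) :
    ∀ {L : List ℕ}, chainB gs L = true → L.Nodup ∧ ∀ P ∈ L, ∃ σ ∈ cl gs, R P σ
  | [], _ => ⟨List.nodup_nil, by simp⟩
  | P :: L, h => by
    have h' : (((Nat.blt P 1329227995784915872903807060280344576 && !memB P L) &&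
      (Nat.beq P pone || anyL (fun g => memB (pmul P g) L) gs)) && chainB gs L) = true := h
    simp only [Bool.and_eq_true, Nat.blt_eq, Bool.not_eq_true', Bool.or_eq_true, Nat.beq_eq,
      anyL_iff, memB_iff] at h'
    obtain ⟨⟨⟨h1, h2⟩, h3⟩, h4⟩ := h'
    obtain ⟨h5, h6⟩ := chainB_spec hv h4
    refine ⟨List.nodup_cons.2 ⟨fun h7 => ?_, h5⟩, fun Q hQ => ?_⟩
    · rw [memB_iff.2 h7] at h2; exact Bool.noConfusion h2
    rcases List.mem_cons.1 hQ with rfl | hQ
    · rcases h3 with rfl | ⟨g, hg, h3⟩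
      · exact ⟨1, one_mem _, R.one⟩
      · obtain ⟨σ, hσ, h7⟩ := h6 _ h3
        obtain ⟨τ, hτ⟩ := exists_R ((allL_iff _ _).1 hv g hg)
        exact ⟨_, mul_mem hσ (inv_mem (Subgroup.subset_closure ⟨g, hg, hτ⟩)), R.cancel h1 hτ h7⟩
    · exact h6 Q hQ

def q2 (P : ℕ) : ℕ := pmul P P
def q3 (P : ℕ) : ℕ := pmul (q2 P) P
def q7 (P : ℕ) : ℕ := pmul (q2 (q3 P)) P

/-- `f` computes `d`-th powers -/
def Pw (d : ℕ) (f : ℕ → ℕ) : Prop := ∀ P σ, R P σ → R (f P) (σ ^ d)

theorem pw1 : Pw 1 fun P => P := fun _ _ h => by simpa using h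
theorem Pw.two {d : ℕ} {f : ℕ → ℕ} (h : Pw d f) : Pw (d * 2) fun P => q2 (f P) := fun P σ h1 => by
  rw [pow_mul, pow_two]; exact (h P σ h1).mul (h P σ h1)
theorem Pw.three {d : ℕ} {f : ℕ → ℕ} (h : Pw d f) : Pw (d * 3) fun P => q3 (f P) := fun P σ h1 => by
  rw [pow_mul, pow_succ, pow_two]; exact ((h P σ h1).mul (h P σ h1)).mul (h P σ h1)
theorem pw7 : Pw 7 fun P => q7 P := fun P σ h1 => by
  rw [pow_succ]; exact (pw1.three.two P σ h1).mul h1

def cnt (f : ℕ → ℕ) (L : List ℕ) : ℕ := cntL (fun P => Nat.beq (f P) pone) L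

def cnts (L : List ℕ) : List ℕ :=
  [cnt (fun P => P) L, cnt (fun P => q2 P) L, cnt (fun P => q3 P) L, cnt (fun P => q2 (q2 P)) L,
    cnt (fun P => q2 (q3 P)) L, cnt (fun P => q7 P) L, cnt (fun P => q2 (q2 (q3 P))) L,
    cnt (fun P => q2 (q7 P)) L, cnt (fun P => q3 (q7 P)) L, cnt (fun P => q2 (q2 (q7 P))) L,
    cnt (fun P => q2 (q3 (q7 P))) L, cnt (fun P => q2 (q2 (q3 (q7 P)))) L]

def eqL (v w : List ℕ) : Bool :=
  List.rec (motive := fun _ => List ℕ → Bool) (fun w => w.isEmpty)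
    (fun a _ ih w => List.rec (motive := fun _ => Bool) false (fun b w' _ => and (Nat.beq a b) (ih w')) w) v w

theorem eq_of_eqL : ∀ {v w : List ℕ}, eqL v w = true → v = w
  | [], w, h => (List.isEmpty_iff.1 h).symm
  | _ :: _, [], h => Bool.noConfusion h
  | a :: v, b :: w, h => by
    have h' : (Nat.beq a b && eqL v w) = true := h
    rw [Bool.and_eq_true, Nat.beq_eq] at h'
    rw [h'.1, eq_of_eqL h'.2]

/-- the certificate: `L` lists the group generated by `gs`, of exponent dividing 84 with counts `v` -/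
def grpB (gs L v : List ℕ) : Bool :=
  and (and (and (allL valB gs) (chainB gs L))
    (and (memB pone L) (allL (fun P => allL (fun g => memB (pmul P g) L) gs) L)))
    (and (allL (fun P => Nat.beq (q2 (q2 (q3 (q7 P)))) pone) L) (eqL (cnts L) v))

theorem sol_eq_cnt {H : Subgroup S24} {L : List ℕ} (hn : L.Nodup) (h1 : ∀ P ∈ L, ∃ σ ∈ H, R P σ)
    (h2 : ∀ σ ∈ H, ∃ P ∈ L, R P σ) {d : ℕ} {f : ℕ → ℕ} (hf : Pw d f) : sol H d = cnt f L := by
  rw [cnt, cntL_eq, List.countP_eq_length_filter, ← List.toFinset_card_of_nodup (hn.filter _), sol,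
    ← Nat.card_eq_finsetCard]
  choose c hc1 hc2 using h2
  refine Nat.card_congr (Equiv.ofBijective (fun g => ⟨c g.1.1 g.1.2, ?_⟩) ⟨fun g h e => ?_, fun P => ?_⟩)
  · rw [List.mem_toFinset, List.mem_filter, Nat.beq_eq]
    exact ⟨hc1 _ _, ((hf _ _ (hc2 _ _)).eq_iff R.one).1 (congrArg Subtype.val g.2)⟩
  · exact Subtype.ext (Subtype.ext (((hc2 _ _).eq_iff (hc2 _ _)).2 (congrArg Subtype.val e)))
  · obtain ⟨P, hP⟩ := P
    have hP' := hP
    rw [List.mem_toFinset, List.mem_filter, Nat.beq_eq] at hP'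
    obtain ⟨σ, hσ, h3⟩ := h1 P hP'.1
    exact ⟨⟨⟨σ, hσ⟩, Subtype.ext (((hf _ _ h3).eq_iff R.one).2 hP'.2)⟩,
      Subtype.ext (((hc2 _ _).eq_iff h3).1 rfl)⟩

theorem real_of_grpB {gs L v : List ℕ} (h : grpB gs L v = true) {Q : ∀ (G : Type) [Group G], Prop}
    (hQ : Q (cl gs)) : Real Q v := by
  simp only [grpB, Bool.and_eq_true] at h
  obtain ⟨⟨⟨hv, hc⟩, h1, h2⟩, h3, h4⟩ := h
  obtain ⟨hn, h5⟩ := chainB_spec hv hc
  have h6 : ∀ σ ∈ cl gs, ∃ P ∈ L, R P σ := by
    intro σ hσ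
    have hσ' : σ ∈ Submonoid.closure {σ | ∃ g ∈ gs, R g σ} := by
      rwa [← Subgroup.closure_toSubmonoid_of_finite]
    induction hσ' using Submonoid.closure_induction_right with
    | one => exact ⟨pone, memB_iff.1 h1, R.one⟩
    | mul_right x hx y hy ih =>
      obtain ⟨g, hg, hy⟩ := hy
      obtain ⟨P, hP, hx'⟩ := ih (by rwa [← Subgroup.closure_toSubmonoid_of_finite] at hx)
      exact ⟨_, memB_iff.1 ((allL_iff _ _).1 ((allL_iff _ _).1 h2 P hP) g hg), hx'.mul hy⟩
  refine ⟨cl gs, inferInstance, inferInstance, hQ, fun g => Subtype.ext ?_, ?_⟩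
  · obtain ⟨P, hP, h7⟩ := h6 g g.2
    exact ((pw7.three.two.two P g h7).eq_iff R.one).2 (Nat.eq_of_beq_eq_true ((allL_iff _ _).1 h3 P hP))
  · rw [← eq_of_eqL h4]
    have s := fun {d : ℕ} {f : ℕ → ℕ} (hf : Pw d f) => sol_eq_cnt hn h5 h6 hf
    rw [cnts, ← s pw1, ← s pw1.two, ← s pw1.three, ← s pw1.two.two, ← s pw1.three.two, ← s pw7,
      ← s pw1.three.two.two, ← s pw7.two, ← s pw7.three, ← s pw7.two.two, ← s pw7.three.two,
      ← s pw7.three.two.two]
    rfl

/-- product of a word in the generators -/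
def wordP (gs w : List ℕ) : ℕ :=
  List.rec (motive := fun _ => ℕ) pone (fun i _ ih => pmul (nth pone gs i) ih) w

theorem wordP_spec {gs : List ℕ} (hv : allL valB gs = true) :
    ∀ w : List ℕ, ∃ σ ∈ cl gs, R (wordP gs w) σ
  | [] => ⟨1, one_mem _, R.one⟩
  | i :: w => by
    obtain ⟨σ, hσ, h⟩ := wordP_spec hv w
    rcases nth_mem pone gs i with e | e
    · exact ⟨1 * σ, by simpa using hσ, R.mul (by rw [e]; exact R.one) h⟩
    · obtain ⟨τ, hτ⟩ := exists_R ((allL_iff _ _).1 hv _ e)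
      exact ⟨τ * σ, mul_mem (Subgroup.subset_closure ⟨_, e, hτ⟩) hσ, hτ.mul h⟩

theorem solvable_sup {G : Type*} [Group G] {U H : Subgroup G} (hU : Group.IsSolvable U)
    (hH : Group.IsSolvable H) (h : H ≤ Subgroup.normalizer (U : Set G)) :
    Group.IsSolvable (H ⊔ U : Subgroup G) := by
  have hn : (U.subgroupOf (H ⊔ U)).Normal :=
    (Subgroup.normal_subgroupOf_iff_le_normalizer le_sup_right).2 (sup_le h Subgroup.le_normalizer)
  have h2 : Group.IsSolvable (↥(H ⊔ U) ⧸ U.subgroupOf (H ⊔ U)) := by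
    refine Group.isSolvable_of_surjective
      (f := (QuotientGroup.mk' _).comp (Subgroup.inclusion (le_sup_left : H ≤ H ⊔ U))) fun q => ?_
    obtain ⟨⟨g, hg⟩, rfl⟩ := QuotientGroup.mk_surjective q
    have hg' : g ∈ ((H ⊔ U : Subgroup G) : Set G) := hg
    rw [Subgroup.coe_mul_of_left_le_normalizer_right _ _ h] at hg'
    obtain ⟨a, ha, b, hb, rfl⟩ := hg'
    refine ⟨⟨a, ha⟩, QuotientGroup.eq.2 ?_⟩
    simpa [Subgroup.mem_subgroupOf] using hb
  refine Group.isSolvable_of_ker_le_range (Subgroup.inclusion (le_sup_right : U ≤ H ⊔ U))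
    (QuotientGroup.mk' (U.subgroupOf (H ⊔ U))) ?_
  rw [QuotientGroup.ker_mk', Subgroup.inclusion_range]

/-- each generator normalises the group generated by the later ones -/
def solvB (ws : List (List ℕ)) (gs : List ℕ) : Bool :=
  List.rec (motive := fun _ => Bool) true (fun x gs' ih => and (and (valB x)
    (allL (fun b => anyL (fun w => Nat.beq (pmul x b) (pmul (wordP gs' w) x)) ws) gs')) ih) gs

theorem solvB_spec {ws : List (List ℕ)} :
    ∀ {gs : List ℕ}, solvB ws gs = true → allL valB gs = true ∧ Group.IsSolvable (cl gs)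
  | [], _ => ⟨rfl, by
      have : cl [] = ⊥ := by simp [cl]
      rw [this]; infer_instance⟩
  | x :: gs, h => by
    have h' : ((valB x && allL (fun b => anyL (fun w => Nat.beq (pmul x b) (pmul (wordP gs w) x)) ws) gs)
      && solvB ws gs) = true := h
    simp only [Bool.and_eq_true, allL_iff, anyL_iff, Nat.beq_eq] at h'
    obtain ⟨⟨h1, h2⟩, h3⟩ := h'
    obtain ⟨hv, hs⟩ := solvB_spec h3
    refine ⟨(Bool.and_eq_true _ _).mpr ⟨h1, hv⟩, ?_⟩
    obtain ⟨ξ, hξ⟩ := exists_R h1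
    have e : cl (x :: gs) = Subgroup.zpowers ξ ⊔ cl gs := by
      rw [cl, cl, Subgroup.zpowers_eq_closure, ← Subgroup.closure_union]
      congr 1
      ext σ
      simp only [List.mem_cons, exists_eq_or_imp, Set.mem_ofPred_eq, Set.mem_union, Set.mem_singleton_iff]
      exact or_congr_left ⟨fun h4 => (h4.eq_iff hξ).2 rfl, fun h4 => h4 ▸ hξ⟩
    have hn : ξ ∈ Subgroup.normalizer (cl gs : Set S24) := by
      have h4 : (cl gs).map (MulAut.conj ξ).toMonoidHom ≤ cl gs := by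
        rw [Subgroup.map_le_iff_le_comap]
        refine (Subgroup.closure_le _).2 ?_
        rintro β ⟨b, hb, hβ⟩
        obtain ⟨w, -, e1⟩ := h2 b hb
        obtain ⟨γ, hγ, h5⟩ := wordP_spec hv w
        have e2 := ((hξ.mul hβ).eq_iff (h5.mul hξ)).2 e1
        change ξ * β * ξ⁻¹ ∈ cl gs
        rwa [e2, mul_inv_cancel_right]
      exact Subgroup.mem_normalizer_iff_map_conj_eq.2 (Subgroup.eq_of_le_of_card_ge h4
        (Subgroup.card_map_of_injective (MulAut.conj ξ).injective).ge)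
    rw [e]
    exact solvable_sup hs inferInstance (Subgroup.zpowers_le.2 hn)

theorem not_solvable {gs : List ℕ} (hv : allL valB gs = true) (ws : List (List ℕ × List ℕ))
    (h : allL (fun g => anyL (fun w => Nat.beq (pmul g (pmul (wordP gs w.2) (wordP gs w.1)))
      (pmul (wordP gs w.1) (wordP gs w.2))) ws) gs = true)
    (h1 : anyL (fun g => not (Nat.beq g pone)) gs = true) : ¬ Group.IsSolvable (cl gs) := by
  intro hs
  simp only [allL_iff, anyL_iff, Nat.beq_eq, Bool.not_eq_true'] at h h1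
  obtain ⟨g, hg, h1⟩ := h1
  obtain ⟨γ, hγ⟩ := exists_R ((allL_iff _ _).1 hv g hg)
  have h2 : (⊤ : Subgroup (cl gs)) ≠ ⊥ := fun e => Nat.ne_of_beq_eq_false h1
    ((hγ.eq_iff R.one).1 (congrArg Subtype.val (Subgroup.mem_bot.1
      (e.le (Subgroup.mem_top (⟨γ, Subgroup.subset_closure ⟨g, hg, hγ⟩⟩ : cl gs))))))
  have h3 := Group.IsSolvable.commutator_lt_of_ne_bot h2
  rw [← Subgroup.map_subtype_lt_map_subtype, Subgroup.map_commutator, ← MonoidHom.range_eq_map,
    Subgroup.range_subtype] at h3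
  refine h3.not_ge ((Subgroup.closure_le _).2 ?_)
  rintro β ⟨b, hb, hβ⟩
  obtain ⟨w, -, e1⟩ := h b hb
  obtain ⟨x, hx, h4⟩ := wordP_spec hv w.1
  obtain ⟨y, hy, h5⟩ := wordP_spec hv w.2
  have e2 := ((hβ.mul (h5.mul h4)).eq_iff (h4.mul h5)).2 e1
  have e3 : β = ⁅x, y⁆ := by rw [commutatorElement_def, ← e2]; group
  exact e3 ▸ Subgroup.commutator_mem_commutator hx hy

end CL.Comp.OT
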