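/-
Certificates for maximal subgroups: a point stabiliser is maximal if it generates the group together with a
representative of each other double coset.
-/
import Cfsg.Agent.Spor.PGCls
import Cfsg.Agent.Spor.PGConj

set_option autoImplicit false

namespace CL.PG

open MulAction Subgroup

variable {G X : Type*} [Group G] [MulAction G X]

/-- Every point of `S` is `u • r • a` with `u ∈ A`, `r ∈ K` and `K ≤ A ⊔ ⟨r⟩`. -/
def DCov (K A : Subgroup G) (a : X) (S : Set X) : Prop :=
  ∀ x ∈ S, ∃ u ∈ A, ∃ r ∈ K, u • r • a = x ∧ K ≤ A ⊔ zpowers r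

theorem DCov.zero {K A : Subgroup G} {a : X} {e : ℕ → X} {n : ℕ} : DCov K A a (mset e n 0) := fun x hx => by
  rw [mset_zero] at hx; exact hx.elim

theorem DCov.lor {K A : Subgroup G} {a : X} {e : ℕ → X} {n m m' : ℕ} (h : DCov K A a (mset e n m))
    (h' : DCov K A a (mset e n m')) : DCov K A a (mset e n (Nat.lor m m')) := fun x hx => by
  rw [mset_lor] at hx; exact hx.elim (h x) (h' x)

theorem subW_cons_le (gs : List G) (w : List ℕ) (l : List (List ℕ)) :
    subW gs (w :: l) ≤ subW gs l ⊔ zpowers (wordG gs w) := subW_le.2 fun v hv => by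
  rcases List.mem_cons.1 hv with rfl | hv
  · exact mem_sup_right (mem_zpowers _)
  · exact mem_sup_left (mem_subW hv)

theorem DCov.step {gs : List G} {lK lA : List (List ℕ)} {w : List ℕ} {a b : X} {S : Set X} {o s : ℕ}
    (hU : UB (subW gs lK) o) (hL : LB (subW gs (w :: lA)) o) (hle : subW gs (w :: lA) ≤ subW gs lK)
    (h1 : wordG gs w • a = b) (h2 : orbit (subW gs lA) b = S ∧ (orbit (subW gs lA) b).ncard = s) :
    DCov (subW gs lK) (subW gs lA) a S := fun x hx => by
  rw [← h2.1] at hx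
  obtain ⟨u, hu⟩ := hx
  exact ⟨u, u.2, _, hle (mem_subW List.mem_cons_self), by rw [h1]; exact hu,
    (hU.eq_of_lb hL hle).ge.trans (subW_cons_le gs w lA)⟩

theorem isCoatom_stabilizer_of_dcov {K A : Subgroup G} {a : X} {S : Set X} (hA : K ⊓ stabilizer G a = A)
    (hS : orbit K a ⊆ {a} ∪ S) (h : DCov K A a S) (hne : ∃ g ∈ K, g • a ≠ a) : IsCoatom (stabilizer K a) := by
  refine ⟨fun e => ?_, fun B hB => ?_⟩
  · obtain ⟨g, hg, h1⟩ := hne
    exact h1 (show (⟨g, hg⟩ : K) ∈ stabilizer K a from e ▸ mem_top _)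
  · obtain ⟨g, hg, h1⟩ := SetLike.exists_of_lt hB
    have hAB : A ≤ B.map K.subtype := fun x hx => by
      rw [← hA] at hx
      exact ⟨⟨x, hx.1⟩, hB.le hx.2, rfl⟩
    obtain ⟨u, hu, r, hr, h2, h3⟩ := h (g • a) ((hS (mem_orbit a g)).resolve_left h1)
    have h4 : (g : G)⁻¹ * (u * r) ∈ A := by
      rw [← hA] at hu ⊢
      refine mem_inf.2 ⟨K.mul_mem (K.inv_mem g.2) (K.mul_mem hu.1 hr), ?_⟩
      rw [mem_stabilizer_iff, mul_smul, mul_smul, h2]
      exact inv_smul_smul _ _
    have h5 : r ∈ B.map K.subtype := by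
      have := mul_mem (inv_mem (hAB hu)) (mul_mem (show (g : G) ∈ B.map K.subtype from ⟨g, hg, rfl⟩) (hAB h4))
      simpa using this
    rw [eq_top_iff]
    intro x _
    obtain ⟨y, hy, e⟩ := (h3.trans (sup_le hAB (zpowers_le.2 h5))) x.2
    exact (Subtype.ext e : y = x) ▸ hy

theorem Exact.coatom {e : ℕ → X} {n N : ℕ} {gs : List G} {ns : List Net} {o : ℕ} {v : Lev} {vs : List Lev}
    {l : List (List ℕ)} (h : Exact e n N gs ns o (v :: vs) l) {m : ℕ}
    (hd : DCov (subW gs l) (subW gs v.nx) (e v.pt) (mset e n m))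
    (hm : subM (orbM N ns v) (Nat.lor (bit v.pt) m) = true) {w : List ℕ} (hw : wordG gs w ∈ subW gs l)
    (hne : wordG gs w • e v.pt ≠ e v.pt) : IsCoatom (stabilizer (subW gs l) (e v.pt)) := by
  refine isCoatom_stabilizer_of_dcov h.stab ?_ hd ⟨_, hw, hne⟩
  rw [h.orbit, ← mset_bit e h.lt, ← mset_lor]
  exact mset_subM hm

theorem Ctx.smul_ne {P : Par} {e : ℕ → X} {gs : List G} {ns : List Net} {D : List (ℕ × List ℕ)}
    {chk : List (List ℕ × List ℕ) → Bool} (c : Ctx P e gs ns D chk) {g : G} {i j : ℕ} (h : g • e i = e j)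
    (hi : i < P.n) (hj : j < P.n) (hne : j ≠ i) : g • e i ≠ e i := fun e' => hne (c.inj j hj i hi (h.symm.trans e'))

theorem isCoatom_stabilizer_smul {a : X} (h : IsCoatom (stabilizer G a)) (g : G) : IsCoatom (stabilizer G (g • a)) := by
  rw [stabilizer_smul_eq_stabilizer_map_conj]
  exact (OrderIso.isCoatom_iff (MulAut.conj g).mapSubgroup _).2 h

theorem isCoatom_stabilizer_of_mem_orbit {a b : X} (h : IsCoatom (stabilizer G a)) (hb : b ∈ orbit G a) :
    IsCoatom (stabilizer G b) := by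
  obtain ⟨g, rfl⟩ := hb
  exact isCoatom_stabilizer_smul h g

theorem isCoatom_comap_equiv {Γ : Type*} [Group Γ] (f : G ≃* Γ) {H : Subgroup Γ} (h : IsCoatom H) :
    IsCoatom (H.comap f.toMonoidHom) := (OrderIso.isCoatom_iff f.comapSubgroup _).2 h

/-- Transport of an extremely primitive action. -/
theorem exists_extPrim {Γ : Type*} [Group Γ] {K A : Subgroup G} (f : Γ ≃* K) {a : X} (hA : K ⊓ stabilizer G a = A)
    (h1 : IsCoatom (stabilizer K a)) (h2 : ∀ b ∈ orbit K a, b ≠ a → IsCoatom (stabilizer A b)) :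
    ∃ H : Subgroup Γ, IsCoatom H ∧ Nonempty (H ≃* A) ∧
      ∀ x : Γ, x ∉ H → IsCoatom ((H ⊓ H.map (MulAut.conj x).toMonoidHom).subgroupOf H) := by
  subst hA
  let H : Subgroup Γ := (stabilizer K a).comap f.toMonoidHom
  let k : H ≃* (K ⊓ stabilizer G a : Subgroup G) :=
    { toFun := fun x => ⟨f x, (f x).2, x.2⟩
      invFun := fun y => ⟨f.symm ⟨y, y.2.1⟩, by
        change f (f.symm _) ∈ stabilizer K a
        rw [f.apply_symm_apply]; exact y.2.2⟩
      left_inv := fun x => by simp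
      right_inv := fun y => by simp
      map_mul' := fun x y => Subtype.ext (by simp) }
  refine ⟨H, isCoatom_comap_equiv f h1, ⟨k⟩, fun x hx => ?_⟩
  have h3 := isCoatom_comap_equiv k (h2 (f x • a) (mem_orbit _ _) hx)
  convert h3 using 1
  ext y
  simp only [mem_subgroupOf, mem_inf, y.2, true_and, mem_map_equiv, mem_comap, mem_stabilizer_iff]
  change (f (x⁻¹ * y * x)) • a = a ↔ f y • f x • a = f x • a
  rw [map_mul, map_mul, map_inv, mul_smul, mul_smul, inv_smul_eq_iff]

end CL.PG
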