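/-
Perfect central extensions whose kernel is the largest quotient of exponent `n` of the multiplier are unique.
-/
import Cfsg.Agent.Fgs.SchurCover2

set_option autoImplicit false

namespace CL.Schur
open Cfsg Subgroup

universe u

variable {Q : Type u} [Group Q] {A : Type*} [CommGroup A]

theorem exists_onto_ker_pow (hA : HasSchurMultiplier Q A) {Γ : Type u} [Group Γ] [Finite Γ] {σ : Γ →* Q}
    (hσ : IsStemExtension σ) (e : σ.ker ≃* A) (n : ℕ) {L : Type*} [Group L] [Finite L] (hL : Group.IsPerfect L)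
    (f : L ⧸ center L ≃* Q) (hn : ∀ x ∈ center L, x ^ n = 1)
    (hc : Nat.card (center L) * Nat.card (powMonoidHom n : A →* A).range = Nat.card A) :
    ∃ η : Γ →* L, Function.Surjective η ∧
      η.ker = (powMonoidHom n : A →* A).range.map (σ.ker.subtype.comp e.symm.toMonoidHom) := by
  let ξ : L →* Q := f.toMonoidHom.comp (QuotientGroup.mk' _)
  have hs : Function.Surjective ξ := f.surjective.comp (QuotientGroup.mk'_surjective _)
  have hk : ξ.ker = center L := by
    ext x; simp [ξ]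
  have hξ : IsStemExtension ξ := isStem_of_perfect hL hs hk.le
  have hQ : Group.IsPerfect Q := ⟨by rw [← map_commutator_of_surjective ξ hs, hL.commutator_eq_top,
    ← MonoidHom.range_eq_map, MonoidHom.range_eq_top_of_surjective _ hs]⟩
  have he := Nat.card_congr e.toEquiv
  obtain ⟨η, hη⟩ := exists_lift_of_perfect_cover hA hQ hσ he.ge (MonoidHom.id Q) ξ hs hk.le
  have hηs := surjective_of_stem hξ η (by rw [hη]; exact hσ.1)
  refine ⟨η, hηs, (eq_of_le_of_card_ge ?_ ?_).symm⟩
  · rintro _ ⟨_, ⟨y, rfl⟩, rfl⟩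
    have : η (e.symm y) ∈ center L := hk ▸ (DFunLike.congr_fun hη _).trans (e.symm y).2
    simpa [MonoidHom.mem_ker] using hn _ this
  · rw [card_map_of_injective (f := σ.ker.subtype.comp e.symm.toMonoidHom)
      (σ.ker.subtype_injective.comp e.symm.injective)]
    have h1 := card_eq_card_ker_mul hσ.1
    have h2 := card_eq_card_ker_mul hs
    have h3 := card_eq_card_ker_mul hηs
    rw [h2, hk, h1, he, ← hc] at h3
    have := HasSM.finite_group hA
    have hp : 0 < Nat.card (center L) * Nat.card Q := Nat.mul_pos Nat.card_pos Nat.card_pos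
    exact (Nat.eq_of_mul_eq_mul_right hp (by linarith)).le

/-- Two perfect central extensions of `Q` by the largest quotient of exponent `n` of the multiplier are isomorphic. -/
theorem equiv_of_center_pow (hA : HasSchurMultiplier Q A) (n : ℕ) {L₁ L₂ : Type*} [Group L₁] [Finite L₁] [Group L₂]
    [Finite L₂] (h₁ : Group.IsPerfect L₁) (h₂ : Group.IsPerfect L₂) (f₁ : L₁ ⧸ center L₁ ≃* Q)
    (f₂ : L₂ ⧸ center L₂ ≃* Q) (n₁ : ∀ x ∈ center L₁, x ^ n = 1) (n₂ : ∀ x ∈ center L₂, x ^ n = 1)
    (c₁ : Nat.card (center L₁) * Nat.card (powMonoidHom n : A →* A).range = Nat.card A)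
    (c₂ : Nat.card (center L₂) * Nat.card (powMonoidHom n : A →* A).range = Nat.card A) : Nonempty (L₁ ≃* L₂) := by
  obtain ⟨Γ, _, _, σ, hσ, ⟨e⟩⟩ := hA.1
  obtain ⟨η₁, s₁, k₁⟩ := exists_onto_ker_pow hA hσ e n h₁ f₁ n₁ c₁
  obtain ⟨η₂, s₂, k₂⟩ := exists_onto_ker_pow hA hσ e n h₂ f₂ n₂ c₂
  exact ⟨(QuotientGroup.quotientKerEquivOfSurjective η₁ s₁).symm.trans
    ((QuotientGroup.quotientMulEquivOfEq (k₁.trans k₂.symm)).trans (QuotientGroup.quotientKerEquivOfSurjective η₂ s₂))⟩

end CL.Schur
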